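import Mathlib
import Cfsg.Agent.Lib.Helper63.BB.Defs

/-!
# S4144 project "BB": package [NCL]

The lower central series of `NC x y` (generated by the conjugates of `y` under powers of `x`)
gains one step: `γ_{k+1}(NC x y) ≤ γ_{k+2}(G)` for `k ≥ 1`.
-/

set_option autoImplicit false

namespace Cfsg.Agent.Lib.Helper87.BB

open Cfsg.Agent.Lib.Helper63.MC Cfsg.Agent.Lib.Helper63.BB
open scoped commutatorElement

universe u

/-- the image of `L G 1` in `G ⧸ L G 2` is central -/
theorem ncl_comm {G : Type u} [Group G] (c g : G) (hc : c ∈ L G 1) :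
    Commute (QuotientGroup.mk c : G ⧸ L G 2) (QuotientGroup.mk g) := by
  have h1 : ⁅c, g⁆ ∈ L G 2 := by
    change ⁅c, g⁆ ∈ ⁅L G 1, (⊤ : Subgroup G)⁆
    exact Subgroup.commutator_mem_commutator hc (Subgroup.mem_top g)
  have h2 : (QuotientGroup.mk (⁅c, g⁆) : G ⧸ L G 2) = 1 :=
    (QuotientGroup.eq_one_iff _).mpr h1
  rw [commutatorElement_def] at h2
  have h3 : (QuotientGroup.mk c : G ⧸ L G 2) * QuotientGroup.mk g *
      (QuotientGroup.mk c)⁻¹ * (QuotientGroup.mk g)⁻¹ = 1 := by
    rw [← h2]; rfl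
  change (QuotientGroup.mk c : G ⧸ L G 2) * QuotientGroup.mk g =
    QuotientGroup.mk g * QuotientGroup.mk c
  have h4 := congrArg (fun t => t * (QuotientGroup.mk g : G ⧸ L G 2) * QuotientGroup.mk c) h3
  simp only [one_mul] at h4
  rw [← h4]
  group

/-- the images of two generators of `NC x y` commute in `G ⧸ L G 2` -/
theorem ncl_gen_comm {G : Type u} [Group G] (x y : G) (i j : ℕ) :
    Commute (QuotientGroup.mk (x ^ i * y * (x ^ i)⁻¹) : G ⧸ L G 2)
      (QuotientGroup.mk (x ^ j * y * (x ^ j)⁻¹)) := by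
  have hL : ∀ k : ℕ, y⁻¹ * (x ^ k * y * (x ^ k)⁻¹) ∈ L G 1 := by
    intro k
    have e : y⁻¹ * (x ^ k * y * (x ^ k)⁻¹) = ⁅y⁻¹, x ^ k⁆ := by
      rw [commutatorElement_def]; group
    rw [e]
    change ⁅y⁻¹, x ^ k⁆ ∈ ⁅L G 0, (⊤ : Subgroup G)⁆
    exact Subgroup.commutator_mem_commutator (Subgroup.mem_top _) (Subgroup.mem_top _)
  have hd : ∀ k : ℕ, (QuotientGroup.mk (x ^ k * y * (x ^ k)⁻¹) : G ⧸ L G 2) =
      QuotientGroup.mk y * QuotientGroup.mk (y⁻¹ * (x ^ k * y * (x ^ k)⁻¹)) := by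
    intro k
    rw [← QuotientGroup.mk_mul]
    congr 1
    group
  rw [hd i, hd j]
  have c1 := hL i
  have c2 := hL j
  refine Commute.mul_left (Commute.mul_right (Commute.refl _) ?_) (Commute.mul_right ?_ ?_)
  · exact (ncl_comm _ _ c2).symm
  · exact ncl_comm _ _ c1
  · exact ncl_comm _ _ c1

/-- any two elements of `NC x y` commute modulo `L G 2` -/
theorem ncl_comm_all {G : Type u} [Group G] (x y : G) (a b : G) (ha : a ∈ NC x y)
    (hb : b ∈ NC x y) :
    Commute (QuotientGroup.mk a : G ⧸ L G 2) (QuotientGroup.mk b) := by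
  unfold NC at ha hb
  induction ha, hb using Subgroup.closure_induction₂ with
  | mem a b ha hb =>
    obtain ⟨i, rfl⟩ := ha
    obtain ⟨j, rfl⟩ := hb
    exact ncl_gen_comm x y i j
  | one_left b hb => exact Commute.one_left _
  | one_right a ha => exact Commute.one_right _
  | mul_left a a' b ha ha' hb h1 h2 =>
    rw [QuotientGroup.mk_mul]; exact Commute.mul_left h1 h2
  | mul_right a b b' ha hb hb' h1 h2 =>
    rw [QuotientGroup.mk_mul]; exact Commute.mul_right h1 h2
  | inv_left a b ha hb h =>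
    rw [QuotientGroup.mk_inv]; exact Commute.inv_left h
  | inv_right a b ha hb h =>
    rw [QuotientGroup.mk_inv]; exact Commute.inv_right h

/-- [NCL] -/
theorem pkgNCLcs : Cfsg.Agent.Lib.Helper63.BB.PkgNCLcs.{u} := by
  intro G _ x y k hk
  induction k, hk using Nat.le_induction with
  | base =>
    rw [Subgroup.lowerCentralSeries_succ, Subgroup.lowerCentralSeries_zero,
      Subgroup.commutator_le]
    intro a ha b hb
    have h := ncl_comm_all x y a b ha hb
    rw [← QuotientGroup.eq_one_iff (N := L G 2), commutatorElement_def]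
    have h' : (QuotientGroup.mk a : G ⧸ L G 2) * QuotientGroup.mk b =
        QuotientGroup.mk b * QuotientGroup.mk a := h
    change (QuotientGroup.mk a : G ⧸ L G 2) * QuotientGroup.mk b * (QuotientGroup.mk a)⁻¹ *
      (QuotientGroup.mk b)⁻¹ = 1
    rw [h']
    group
  | succ k hk ih =>
    rw [Subgroup.lowerCentralSeries_succ]
    change _ ≤ ⁅L G (k + 1), (⊤ : Subgroup G)⁆
    exact Subgroup.commutator_mono ih le_top

end Cfsg.Agent.Lib.Helper87.BB
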