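import Mathlib
import Cfsg.Agent.Lib.Helper63.BB.Defs

/-!
# S4144 project "BB": package [QK]

Two-step centralizers are compatible with the quotient by `L X (n - 2)`.
-/

set_option autoImplicit false

namespace Cfsg.Agent.Lib.Helper87.BB

open Cfsg.Agent.Lib.Helper63.MC Cfsg.Agent.Lib.Helper63.BB

universe u

/-- the lower central series of a quotient is the image of the lower central series -/
theorem qk_lcs_quot {X : Type u} [Group X] (N : Subgroup X) [N.Normal] (j : ℕ) :
    L (X ⧸ N) j = (L X j).map (QuotientGroup.mk' N) := by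
  change (⊤ : Subgroup (X ⧸ N)).lowerCentralSeries j = _
  rw [Subgroup.map_lowerCentralSeries]
  congr 1
  rw [← MonoidHom.range_eq_map]
  exact (MonoidHom.range_eq_top.mpr (QuotientGroup.mk'_surjective N)).symm

/-- [QK] -/
theorem pkgQuotK : Cfsg.Agent.Lib.Helper63.BB.PkgQuotK.{u} := by
  intro X _ n i hin g
  have hN : L X (n - 2) ≤ L X (i + 2) :=
    Subgroup.lowerCentralSeries_antitone _ (by omega)
  rw [mem_K, mem_K]
  constructor
  · intro h abar habar
    rw [qk_lcs_quot] at habar ⊢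
    obtain ⟨a, ha, rfl⟩ := habar
    exact ⟨a⁻¹ * (g * a * g⁻¹), h a ha, rfl⟩
  · intro h a ha
    have h1 : (QuotientGroup.mk' (L X (n - 2)) a) ∈ L (X ⧸ L X (n - 2)) i := by
      rw [qk_lcs_quot]
      exact ⟨a, ha, rfl⟩
    have h2 := h _ h1
    rw [qk_lcs_quot] at h2
    obtain ⟨b, hb, hb2⟩ := h2
    have h3 : (QuotientGroup.mk b : X ⧸ L X (n - 2)) =
        QuotientGroup.mk (a⁻¹ * (g * a * g⁻¹)) := hb2
    rw [QuotientGroup.eq] at h3
    have h4 : a⁻¹ * (g * a * g⁻¹) = b * (b⁻¹ * (a⁻¹ * (g * a * g⁻¹))) := by group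
    rw [h4]
    exact Subgroup.mul_mem _ hb (hN h3)

end Cfsg.Agent.Lib.Helper87.BB
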