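import Mathlib
import Cfsg.Agent.Lib.Helper63.BB.Defs
import Cfsg.Agent.S4210

/-!
# S4144 project "BB": package [RC]

In a regular `p`-group, `|Ω₁| * |{p-th powers}| = |M|`.
-/

set_option autoImplicit false

namespace Cfsg.Agent.Lib.Helper87.BB

open Cfsg.Agent.Lib.Helper63.MC Cfsg.Agent.Lib.Helper63.BB

universe u

/-- [RC] -/
theorem pkgRegCount : Cfsg.Agent.Lib.Helper63.BB.PkgRegCount.{u} := by
  intro M _ _ p _ hreg
  have key : ∀ a b : M, a ^ p = b ^ p ↔ (a * b⁻¹) ^ p = 1 := fun a b => by
    simpa using Cfsg.Agent.S4210.result hreg a b 1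
  let Ω : Subgroup M :=
    { carrier := {m | m ^ p = 1}
      one_mem' := by simp
      mul_mem' := by
        intro a b ha hb
        have ha' : a ^ p = 1 := ha
        have hb' : b ^ p = 1 := hb
        have h := (key a b⁻¹).mp (by rw [ha', inv_pow, hb', inv_one])
        rw [inv_inv] at h
        exact h
      inv_mem' := by
        intro a ha
        have ha' : a ^ p = 1 := ha
        change a⁻¹ ^ p = 1
        rw [inv_pow, ha', inv_one] }
  have hmemΩ : ∀ m : M, m ∈ Ω ↔ m ^ p = 1 := fun m => Iff.rfl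
  have hrel : ∀ a b : M, a⁻¹ * b ∈ Ω ↔ a ^ p = b ^ p := by
    intro a b
    rw [hmemΩ]
    have h := key a⁻¹ b⁻¹
    rw [inv_inv, inv_pow, inv_pow, inv_inj] at h
    exact h.symm
  let f : M ⧸ Ω → {y : M // ∃ m : M, y = m ^ p} :=
    Quotient.lift (s := QuotientGroup.leftRel Ω) (fun m : M => ⟨m ^ p, m, rfl⟩) (by
      intro a b hab
      have h1 : a⁻¹ * b ∈ Ω := QuotientGroup.leftRel_apply.mp hab
      exact Subtype.ext ((hrel a b).mp h1))
  have hf : Function.Bijective f := by
    constructor
    · intro q1 q2 h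
      induction q1 using QuotientGroup.induction_on with
      | _ a =>
      induction q2 using QuotientGroup.induction_on with
      | _ b =>
      have h1 : a ^ p = b ^ p := congrArg Subtype.val h
      exact QuotientGroup.eq.mpr ((hrel a b).mpr h1)
    · rintro ⟨y, m, rfl⟩
      exact ⟨QuotientGroup.mk m, rfl⟩
  have h1 : Nat.card (M ⧸ Ω) = Nat.card {y : M // ∃ m : M, y = m ^ p} :=
    Nat.card_congr (Equiv.ofBijective f hf)
  have h2 : Nat.card {m : M // m ^ p = 1} = Nat.card Ω := rfl
  rw [h2, ← h1, mul_comm]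
  exact (Subgroup.card_eq_card_quotient_mul_card_subgroup Ω).symm

end Cfsg.Agent.Lib.Helper87.BB
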